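import Cfsg.Agent.Lib.Ind.Glaub

/-! The relative Glauberman correspondence for `p`-groups, inductive step. -/

set_option autoImplicit false

namespace Cfsg.Agent.Ind

open Cfsg Cfsg.Agent.Char Cfsg.Agent.Block Subgroup
open scoped ComplexConjugate

theorem fixed_of_unique_fixed {p : ℕ} [hp : Fact p.Prime] {P X : Type*} [Group P] [Finite P]
    [MulAction P X] (hP : IsPGroup p P) (A : Subgroup P) (T : Set X)
    (hT : ∀ g : P, ∀ t ∈ T, g • t ∈ T) {t₀ : X} (ht₀ : t₀ ∈ T) (h0 : ∀ a ∈ A, a • t₀ = t₀)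
    (hu : ∀ t ∈ T, (∀ a ∈ A, a • t = t) → t = t₀) (g : P) : g • t₀ = t₀ := by
  haveI : Finite (MulAction.orbit P t₀) := Set.finite_range _
  have h1 := (hP.to_subgroup A).card_modEq_card_fixedPoints (MulAction.orbit P t₀)
  have h2 : Nat.card (MulAction.fixedPoints A (MulAction.orbit P t₀)) = 1 := by
    rw [Nat.card_eq_one_iff_exists]
    refine ⟨⟨⟨t₀, MulAction.mem_orbit_self _⟩, fun a => Subtype.ext (h0 a a.2)⟩, ?_⟩
    rintro ⟨⟨_, g, rfl⟩, h⟩
    exact Subtype.ext (Subtype.ext (hu _ (hT g _ ht₀) fun a ha =>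
      congrArg Subtype.val (h ⟨a, ha⟩)))
  obtain ⟨k, hk⟩ := hP.card_orbit t₀
  rw [h2, hk] at h1
  rcases k with _ | k
  · have := (Nat.card_eq_one_iff_unique.mp hk).1
    exact congrArg Subtype.val (Subsingleton.elim
      (⟨g • t₀, MulAction.mem_orbit _ _⟩ : MulAction.orbit P t₀) ⟨t₀, MulAction.mem_orbit_self _⟩)
  · exact absurd ((Nat.ModEq.dvd_iff h1 dvd_rfl).mp (dvd_pow_self p k.succ_ne_zero))
      hp.out.not_dvd_one

variable {G : Type*} [Group G] [Finite G]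

attribute [local instance] subFin

/-- Conjugation action on a normalized subgroup. -/
def cAut {P K : Subgroup G} (h : P ≤ normalizer (K : Set G)) : P →* MulAut K :=
  K.normalizerMonoidHom.comp (inclusion h)

omit [Finite G] in
theorem cAut_apply {P K : Subgroup G} (h : P ≤ normalizer (K : Set G)) (g : P) (k : K) :
    (cAut h g k : G) = g * k * (g : G)⁻¹ := rfl

omit [Finite G] in
theorem invBy_iff {P K : Subgroup G} (h : P ≤ normalizer (K : Set G)) (g : P) (χ : K → ℂ) :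
    InvBy (g : G) K χ ↔ ∀ k, χ (cAut h g k) = χ k :=
  ⟨fun H k => H k _ rfl, fun H k k' e => by rw [← H k, show k' = cAut h g k from Subtype.ext e]⟩

omit [Finite G] in
theorem cAut_smul_eq_iff {P K : Subgroup G} (h : P ≤ normalizer (K : Set G)) (g : P)
    (χ : IrrCharacter K) : cAut h g • χ = χ ↔ InvBy (g : G) K χ := by
  rw [invBy_iff h, aut_smul_irr_eq_iff]

variable {M : Ideal AlgInt} [hM : M.IsMaximal] {p : ℕ} [CharP (Res M) p] [hp : Fact p.Prime]

theorem red_inner_eq {P K : Subgroup G} (hP : IsPGroup p P) (h : P ≤ normalizer (K : Set G))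
    {a b : K → ℂ} (ha : IsGeneralizedCharacter K a) (hb : IsGeneralizedCharacter K b)
    (ha' : ∀ x ∈ P, InvBy x K a) (hb' : ∀ x ∈ P, InvBy x K b) {η₀ : IrrCharacter K}
    (h0 : ∀ x ∈ P, InvBy x K η₀) (hu : ∀ η : IrrCharacter K, (∀ x ∈ P, InvBy x K η) →
      red M (classInner a η) ≠ 0 → red M (classInner (η : K → ℂ) b) ≠ 0 → η = η₀) :
    red M (classInner a b) = red M (classInner a η₀) * red M (classInner (η₀ : K → ℂ) b) := by
  classical
  letI : MulAction P (IrrCharacter K) := MulAction.compHom _ (cAut h)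
  have hs : ∀ (g : P) (η : IrrCharacter K), g • η = cAut h g • η := fun _ _ => rfl
  have hi : ∀ {u v : K → ℂ}, IsGeneralizedCharacter K u → IsGeneralizedCharacter K v →
      classInner u v ∈ locRing M := fun hu hv => by
    obtain ⟨n, hn⟩ := exists_int_inner hu hv
    rw [hn]; exact intCast_mem _ n
  have hm : ∀ η : IrrCharacter K, classInner a η * classInner (η : K → ℂ) b ∈ locRing M :=
    fun η => mul_mem (hi ha (isGen_of_isIrr η.2)) (hi (isGen_of_isIrr η.2) hb)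
  have := sum_sub_sum_fixed_mem' (M := M) hP
    (fun η : IrrCharacter K => classInner a η * classInner (η : K → ℂ) b) (fun g η => by
      rw [← inner_aut (cAut h g) a, ← inner_aut (cAut h g) _ b]
      simp only [hs, aut_smul_irr_apply', (invBy_iff h g a).mp (ha' g g.2),
        (invBy_iff h g b).mp (hb' g g.2)]) hm
  have hf : ∀ η : IrrCharacter K, η ∈ MulAction.fixedPoints P (IrrCharacter K) ↔
      ∀ x ∈ P, InvBy x K η := fun η =>
    ⟨fun H x hx => (cAut_smul_eq_iff h ⟨x, hx⟩ η).mp (H ⟨x, hx⟩),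
      fun H g => (cAut_smul_eq_iff h g η).mpr (H g g.2)⟩
  rw [← inner_eq_sum_irr (cf_of_isGen ha)] at this
  rw [red_eq_of_sub_mem this, red_sum _ _ fun η _ => hm _,
    Finset.sum_eq_single ⟨η₀, (hf _).mpr h0⟩,
    red_mul (hi ha (isGen_of_isIrr η₀.2)) (hi (isGen_of_isIrr η₀.2) hb)]
  · rintro ⟨η, hη⟩ _ hne
    rw [red_mul (hi ha (isGen_of_isIrr η.2)) (hi (isGen_of_isIrr η.2) hb)]
    by_contra H
    exact hne (Subtype.ext (hu η ((hf _).mp hη) (left_ne_zero_of_mul H) (right_ne_zero_of_mul H)))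
  · simp

omit [CharP (Res M) p] hp in
theorem rm_smul {P K C : Subgroup G} (hK : P ≤ normalizer (K : Set G))
    (hC : P ≤ normalizer (C : Set G)) (h : C ≤ K) (g : P) (χ : IrrCharacter K) (ξ : IrrCharacter C) :
    rm M h (cAut hK g • χ : IrrCharacter K) (cAut hC g • ξ : IrrCharacter C) = rm M h χ ξ := by
  rw [rm, rm, ← inner_aut (cAut hC g)]
  simp only [aut_smul_irr_apply']
  congr 2
  ext c
  exact aut_smul_irr_apply' (cAut hK g) χ (inclusion h c)

omit [CharP (Res M) p] in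
/-- The correspondence for a subgroup respects invariance under a larger `p`-group. -/
theorem Corr.upgrade {P K C A : Subgroup G} (hP : IsPGroup p P) (hK : P ≤ normalizer (K : Set G))
    (hC : P ≤ normalizer (C : Set G)) {h : C ≤ K} (hA : A ≤ P) (H : Corr M h A) : Corr M h P := by
  constructor
  · intro χ hχ
    obtain ⟨ξ₀, h1, h2, h3⟩ := H.1 χ fun x hx => hχ x (hA hx)
    refine ⟨ξ₀, fun x hx => ?_, h2, fun ξ hξ => h3 ξ fun x hx => hξ x (hA hx)⟩
    letI : MulAction P (IrrCharacter C) := MulAction.compHom _ (cAut hC)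
    refine (cAut_smul_eq_iff hC ⟨x, hx⟩ ξ₀).mp (fixed_of_unique_fixed hP (A.subgroupOf P)
      {ξ : IrrCharacter C | rm M h χ ξ ≠ 0} (fun g ξ hξ => ?_) (fun e => by simp [e] at h2)
      (fun a ha => (cAut_smul_eq_iff hC a ξ₀).mpr (h1 a ha)) (fun ξ hξ H' => h3 ξ (fun a ha =>
        (cAut_smul_eq_iff hC ⟨a, hA ha⟩ ξ).mp (H' ⟨a, hA ha⟩ ha)) hξ) ⟨x, hx⟩)
    change rm M h χ (cAut hC g • ξ : IrrCharacter C) ≠ 0
    rwa [← (cAut_smul_eq_iff hK g χ).mpr (hχ g g.2), rm_smul]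
  · intro ξ hξ
    obtain ⟨χ₀, h1, h2, h3⟩ := H.2 ξ fun x hx => hξ x (hA hx)
    refine ⟨χ₀, fun x hx => ?_, h2, fun χ hχ => h3 χ fun x hx => hχ x (hA hx)⟩
    letI : MulAction P (IrrCharacter K) := MulAction.compHom _ (cAut hK)
    refine (cAut_smul_eq_iff hK ⟨x, hx⟩ χ₀).mp (fixed_of_unique_fixed hP (A.subgroupOf P)
      {χ : IrrCharacter K | rm M h χ ξ ≠ 0} (fun g χ hχ => ?_) (fun e => by simp [e] at h2)
      (fun a ha => (cAut_smul_eq_iff hK a χ₀).mpr (h1 a ha)) (fun χ hχ H' => h3 χ (fun a ha =>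
        (cAut_smul_eq_iff hK ⟨a, hA ha⟩ χ).mp (H' ⟨a, hA ha⟩ ha)) hχ) ⟨x, hx⟩)
    change rm M h (cAut hK g • χ : IrrCharacter K) ξ ≠ 0
    rwa [← (cAut_smul_eq_iff hC g ξ).mpr (hξ g g.2), rm_smul]

omit [Finite G] in
theorem InvBy.res {K C : Subgroup G} (h : C ≤ K) {x : G} {χ : K → ℂ} (H : InvBy x K χ) :
    InvBy x C fun c => χ (inclusion h c) := fun _ _ e => H _ _ e

theorem rm_trans {P K D C : Subgroup G} (hP : IsPGroup p P) (hD : P ≤ normalizer (D : Set G))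
    (hC : P ≤ normalizer (C : Set G)) (h : D ≤ K) (h' : C ≤ D) (χ : IrrCharacter K)
    (hχ : ∀ x ∈ P, InvBy x K χ) (ξ : IrrCharacter C) (hξ : ∀ x ∈ P, InvBy x C ξ)
    {η₀ : IrrCharacter D} (h0 : ∀ x ∈ P, InvBy x D η₀)
    (hu : ∀ η : IrrCharacter D, (∀ x ∈ P, InvBy x D η) → rm M h χ η ≠ 0 → rm M h' η ξ ≠ 0 →
      η = η₀) : rm M (h'.trans h) χ ξ = rm M h χ η₀ * rm M h' η₀ ξ := by
  let e := subgroupOfEquivOfLe h'
  let b := indFun (C.subgroupOf D) fun c => (ξ : C → ℂ) (e c)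
  have hb : ∀ a : D → ℂ, IsClassFunction D a →
      classInner a b = classInner (fun c : C => a (inclusion h' c)) ξ := fun a ha => by
    rw [frobenius' _ _ ha, ← Char.inner_comp_equiv e]
    rfl
  have hbi : ∀ x ∈ P, InvBy x D b := fun x hx => by
    rw [invBy_iff hD ⟨x, hx⟩]
    intro k
    simp only [b, indFun_apply']
    congr 1
    refine (Fintype.sum_equiv (cAut hD ⟨x, hx⟩).toEquiv _ _ fun y => ?_).symm
    simp only [MulEquiv.toEquiv_eq_coe, EquivLike.coe_coe, ← map_inv, ← map_mul]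
    generalize y * k * y⁻¹ = z
    have hz : cAut hD ⟨x, hx⟩ z ∈ C.subgroupOf D ↔ z ∈ C.subgroupOf D :=
      (mem_normalizer_iff.mp (hC hx) z).symm
    by_cases hz' : z ∈ C.subgroupOf D
    · rw [ebz_of_mem _ _ hz', ebz_of_mem _ _ (hz.mpr hz')]
      exact (hξ x hx _ _ rfl).symm
    · rw [ebz_of_not_mem _ _ hz', ebz_of_not_mem _ _ (mt hz.mp hz')]
  have := red_inner_eq (M := M) hP hD (isGen_comp (isGen_of_isIrr χ.2) (inclusion h))
    (isGen_indFun _ (isGen_of_isIrr (isIrr_comp_equiv ξ.2 e))) (fun x hx => (hχ x hx).res h) hbi h0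
    (fun η hη h1 h2 => hu η hη h1 (by rwa [rm, ← hb _ (isClass_irr η)]))
  rw [hb _ (cf_comp (isClass_irr χ) (inclusion h)), hb _ (isClass_irr η₀)] at this
  exact this

theorem Corr.trans {P K D C : Subgroup G} (hP : IsPGroup p P) (hD : P ≤ normalizer (D : Set G))
    (hC : P ≤ normalizer (C : Set G)) {h : D ≤ K} {h' : C ≤ D} (H : Corr M h P)
    (H' : Corr M h' P) : Corr M (h'.trans h) P := by
  constructor
  · intro χ hχ
    obtain ⟨η₀, a1, a2, a3⟩ := H.1 χ hχ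
    obtain ⟨ξ₀, b1, b2, b3⟩ := H'.1 η₀ a1
    have key := fun ξ hξ => rm_trans (M := M) hP hD hC h h' χ hχ ξ hξ a1
      fun η hη h1 _ => a3 η hη h1
    refine ⟨ξ₀, b1, by rw [key ξ₀ b1, mul_pow, a2, b2, one_mul], fun ξ hξ hne => b3 ξ hξ ?_⟩
    rw [key ξ hξ] at hne
    exact right_ne_zero_of_mul hne
  · intro ξ hξ
    obtain ⟨η₀, a1, a2, a3⟩ := H'.2 ξ hξ
    obtain ⟨χ₀, b1, b2, b3⟩ := H.2 η₀ a1
    have key := fun χ hχ => rm_trans (M := M) hP hD hC h h' χ hχ ξ hξ a1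
      fun η hη _ h2 => a3 η hη h2
    refine ⟨χ₀, b1, by rw [key χ₀ b1, mul_pow, a2, b2, one_mul], fun χ hχ hne => b3 χ hχ ?_⟩
    rw [key χ hχ] at hne
    exact left_ne_zero_of_mul hne

omit [CharP (Res M) p] hp in
theorem corr_refl (K : Subgroup G) (A : Set G) : Corr M (le_refl K) A := by
  have h : ∀ χ ξ : IrrCharacter K, rm M (le_refl K) χ ξ = red M (classInner (χ : K → ℂ) ξ) :=
    fun _ _ => rfl
  constructor
  · refine fun χ hχ => ⟨χ, hχ, by rw [h, inner_self_of_isIrr χ.2]; simp, fun ξ _ hne => ?_⟩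
    exact Subtype.ext (eq_of_inner_ne_zero χ.2 ξ.2 (ne_zero_of_red_ne_zero hne)).symm
  · refine fun χ hχ => ⟨χ, hχ, by rw [h, inner_self_of_isIrr χ.2]; simp, fun ξ _ hne => ?_⟩
    exact Subtype.ext (eq_of_inner_ne_zero ξ.2 χ.2 (ne_zero_of_red_ne_zero hne))

omit [Finite G] in
theorem exists_relCent {K Q : Subgroup G} (hKQ : K ≤ normalizer (Q : Set G)) (A : Set G) :
    ∃ C : Subgroup G, ∀ k, k ∈ C ↔ k ∈ K ∧ ∀ x ∈ A, x * k * x⁻¹ * k⁻¹ ∈ Q :=
  ⟨{ carrier := {k | k ∈ K ∧ ∀ x ∈ A, x * k * x⁻¹ * k⁻¹ ∈ Q}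
     one_mem' := ⟨K.one_mem, fun x _ => by simp⟩
     mul_mem' := fun {a b} ha hb => ⟨K.mul_mem ha.1 hb.1, fun x hx => by
       have := Q.mul_mem (ha.2 x hx) (Tr.conj_mem_of_mem_normalizer (hKQ ha.1) (hb.2 x hx))
       convert this using 1; group⟩
     inv_mem' := fun {a} ha => ⟨K.inv_mem ha.1, fun x hx => by
       have := Tr.conj_mem_of_mem_normalizer' (hKQ ha.1) (Q.inv_mem (ha.2 x hx))
       convert this using 1; group⟩ }, fun _ => Iff.rfl⟩

theorem le_normalizer_relCent {P A K Q C : Subgroup G} (hPK : P ≤ normalizer (K : Set G))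
    (hPQ : P ≤ normalizer (Q : Set G)) (hPA : P ≤ normalizer (A : Set G))
    (hC : ∀ k, k ∈ C ↔ k ∈ K ∧ ∀ x ∈ A, x * k * x⁻¹ * k⁻¹ ∈ Q) : P ≤ normalizer (C : Set G) :=
  fun g hg => Tr.mem_normalizer_of_forall fun c hc => (hC _).mpr
    ⟨Tr.conj_mem_of_mem_normalizer (hPK hg) ((hC c).mp hc).1, fun x hx => by
      have := Tr.conj_mem_of_mem_normalizer (hPQ hg)
        (((hC c).mp hc).2 _ (Tr.conj_mem_of_mem_normalizer' (hPA hg) hx))
      convert this using 1; group⟩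

/-- The relative Glauberman correspondence. -/
theorem corr_pgroup {K Q : Subgroup G} (hQK : Q ≤ K) (hKQ : K ≤ normalizer (Q : Set G))
    (hi : ¬ p ∣ Q.relIndex K) (n : ℕ) : ∀ (P : Subgroup G), Nat.card P = n → IsPGroup p P →
    P ≤ normalizer (K : Set G) → P ≤ normalizer (Q : Set G) → ∀ (C : Subgroup G) (h : C ≤ K),
    (∀ k, k ∈ C ↔ k ∈ K ∧ ∀ x ∈ P, x * k * x⁻¹ * k⁻¹ ∈ Q) → Corr M h P := by
  induction n using Nat.strong_induction_on with
  | _ n ih =>
  intro P hn hP hPK hPQ C h hC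
  by_cases hb : P = ⊥
  · subst hb
    obtain rfl : C = K := le_antisymm h fun k hk => (hC k).mpr ⟨hk, fun x hx => by
      simp [mem_bot.mp hx]⟩
    exact corr_refl C _
  obtain ⟨B, hBn, hBi, -⟩ := Tr.exists_normal_index_prime_of_isPGroup hP (H := ⊥) (by
    haveI := (nontrivial_iff_ne_bot P).mpr hb
    exact bot_ne_top)
  have hBt : B ≠ ⊤ := fun e => hp.out.one_lt.ne' (by rw [← hBi, e, index_top])
  obtain ⟨x, hx⟩ : ∃ x, x ∉ B := by
    by_contra H
    push Not at H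
    exact hBt ((eq_top_iff' _).mpr H)
  have hBx : B ⊔ zpowers x = ⊤ := by
    have h1 := relIndex_mul_index (le_sup_left : B ≤ B ⊔ zpowers x)
    rw [hBi] at h1
    rcases hp.out.eq_one_or_self_of_dvd _ (Dvd.intro_left _ h1) with h2 | h2
    · exact index_eq_one.mp h2
    · rw [h2, mul_eq_right₀ hp.out.ne_zero, relIndex_eq_one] at h1
      exact absurd (h1 (mem_sup_right (mem_zpowers x))) hx
  let A := B.map P.subtype
  have hAP : A ≤ P := map_subtype_le B
  have hPA : P ≤ normalizer (A : Set G) := fun g hg => Tr.mem_normalizer_of_forall (by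
    rintro _ ⟨b, hb, rfl⟩
    exact ⟨_, hBn.conj_mem b hb ⟨g, hg⟩, rfl⟩)
  obtain ⟨D, hD⟩ := exists_relCent hKQ A
  have hDK : D ≤ K := fun k hk => ((hD k).mp hk).1
  have hPD := le_normalizer_relCent hPK hPQ hPA hD
  have hPC := le_normalizer_relCent hPK hPQ le_normalizer hC
  have hCD : ∀ k, k ∈ C ↔ k ∈ D ∧ x * k * (x : G)⁻¹ * k⁻¹ ∈ Q := fun k => by
    rw [hC, hD, and_assoc]
    refine and_congr_right fun hk => ⟨fun H => ⟨fun y hy => H y (hAP hy), H x x.2⟩, fun H y hy => ?_⟩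
    let S : Subgroup P :=
      { carrier := {y | (y : G) * k * (y : G)⁻¹ * k⁻¹ ∈ Q}
        one_mem' := by simp
        mul_mem' := fun {a b} ha hb => by
          have := Q.mul_mem (Tr.conj_mem_of_mem_normalizer (hPQ a.2) hb) ha
          simp only [Set.mem_ofPred_eq, coe_mul]
          convert this using 1; group
        inv_mem' := fun {a} ha => by
          have := Tr.conj_mem_of_mem_normalizer' (hPQ a.2) (Q.inv_mem ha)
          simp only [Set.mem_ofPred_eq, coe_inv]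
          convert this using 1; group }
    have : B ⊔ zpowers x ≤ S := sup_le (fun b hb => H.1 b ⟨b, hb, rfl⟩) (zpowers_le.mpr H.2)
    exact this (hBx ▸ mem_top (⟨y, hy⟩ : P))
  have hCD' : C ≤ D := fun k hk => ((hCD k).mp hk).1
  have hQD : Q ≤ D := fun q hq => (hD q).mpr ⟨hQK hq, fun y hy =>
    Q.mul_mem (Tr.conj_mem_of_mem_normalizer (hPQ (hAP hy)) hq) (Q.inv_mem hq)⟩
  obtain ⟨j, hj⟩ := hP x
  have hj' : (x : G) ^ p ^ j = 1 := by simpa using congrArg Subtype.val hj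
  have H1 : Corr M hDK A := ih _ (by
    rw [← hn, card_map_of_injective P.subtype_injective]
    exact Finite.card_subtype_lt hx) A rfl (hP.to_le hAP) (hAP.trans hPK) (hAP.trans hPQ) D hDK hD
  have H2 : Corr M hCD' {(x : G)} := corr_cyclic hj' (hPD x.2) (hPC x.2) hCD'
    (rel_fusion hp.out hj' (hDK.trans hKQ) (hPQ x.2)
      (fun H => hi (H.trans (Dvd.intro _ (relIndex_mul_relIndex Q D K hQD hDK)))) hCD)
  have hz : ∀ (L : Subgroup G) (hL : P ≤ normalizer (L : Set G)) (χ : IrrCharacter L),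
      (∀ y ∈ ({(x : G)} : Set G), InvBy y L χ) ↔
        ∀ y ∈ (zpowers (x : G) : Set G), InvBy y L χ := fun L hL χ => by
    simp only [Set.mem_singleton_iff, forall_eq]
    refine ⟨fun H y hy => ?_, fun H => H x (mem_zpowers _)⟩
    obtain ⟨i, rfl⟩ := hy
    refine (cAut_smul_eq_iff hL (x ^ i) χ).mp ?_
    rw [map_zpow]
    exact zpow_mem (MulAction.mem_stabilizer_iff.mpr ((cAut_smul_eq_iff hL x χ).mpr H)) i
  have H2' : Corr M hCD' (zpowers (x : G)) := by
    simpa only [Corr, hz D hPD, hz C hPC] using H2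
  exact (H1.upgrade hP hPK hPD hAP).trans hP hPD hPC
    (H2'.upgrade hP hPD hPC (zpowers_le.mpr x.2))

end Cfsg.Agent.Ind
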