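import Cfsg.Agent.Lib.Transfer.Frobenius

/-! Tate's theorem, by Brandis' crossed transfer. -/

set_option autoImplicit false

namespace Cfsg.Agent.Ind

open Cfsg Cfsg.Agent.Tr Subgroup
open scoped commutatorElement IsMulCommutative

variable {G : Type*} [Group G] [Finite G]

theorem brandis {A : Type*} [CommGroup A] (M P : Subgroup G) [hM : M.Normal] (hMP : M ⊔ P = ⊤)
    (l : G → A) (hl : ∀ a ∈ M ⊓ P, ∀ b ∈ M ⊓ P, l (a * b) = l a * l b)
    (hl' : ∀ x ∈ P, ∀ a ∈ M ⊓ P, l (x * a * x⁻¹) = l a) (hA : ∀ f : M →* A, ∀ m, f m = 1) :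
    ∃ φ : P →* A, ∀ u : P, (u : G) ∈ M → φ u * l u ^ P.index = 1 := by
  classical
  have := Fintype.ofFinite (G ⧸ P)
  have hs : ∀ q : G ⧸ P, ∃ m ∈ M, (m : G ⧸ P) = q := fun q => by
    obtain ⟨g, rfl⟩ := QuotientGroup.mk_surjective q
    have hg : g ∈ M ⊔ P := hMP ▸ mem_top g
    obtain ⟨m, hm, x, hx, rfl⟩ := mem_sup_of_normal_left.mp hg
    exact ⟨m, hm, (QuotientGroup.mk_mul_of_mem m hx).symm⟩
  choose s hsM hs using hs
  let c : G → G ⧸ P → G := fun g q => (s (g • q))⁻¹ * g * s q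
  have hcP : ∀ g q, c g q ∈ P := fun g q => by
    simp only [c, mul_assoc]
    rw [← QuotientGroup.eq, hs, ← smul_eq_mul, ← MulAction.Quotient.smul_mk, hs]
  have hc : ∀ g h q, c (g * h) q = c g (h • q) * c h q := fun g h q => by
    simp only [c, mul_smul]; group
  have hcM : ∀ g ∈ M, ∀ q, c g q ∈ M := fun g hg q =>
    M.mul_mem (M.mul_mem (M.inv_mem (hsM _)) hg) (hsM _)
  have hd : ∀ x ∈ P, ∀ q, c x q * x⁻¹ ∈ M ⊓ P := fun x hx q =>
    ⟨by
      have : c x q * x⁻¹ = (s (x • q))⁻¹ * (x * s q * x⁻¹) := by simp only [c]; group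
      rw [this]
      exact M.mul_mem (M.inv_mem (hsM _)) (hM.conj_mem _ (hsM _) _),
    P.mul_mem (hcP _ _) (P.inv_mem hx)⟩
  let V : M →* A := MonoidHom.mk' (fun m => ∏ q, l (c m q)) fun a b => by
    simp only [coe_mul, hc]
    rw [Finset.prod_congr rfl fun q _ => hl _ ⟨hcM _ a.2 _, hcP _ _⟩ _ ⟨hcM _ b.2 _, hcP _ _⟩,
      Finset.prod_mul_distrib]
    congr 1
    exact Fintype.prod_equiv (MulAction.toPerm (b : G)) _ _ fun _ => rfl
  let φ : P →* A := MonoidHom.mk' (fun x => ∏ q, l (c x q * (x : G)⁻¹)) fun a b => by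
    have : ∀ q, l (c (a * b : P) q * ((a * b : P) : G)⁻¹) =
        l (c a ((b : G) • q) * (a : G)⁻¹) * l (c b q * (b : G)⁻¹) := fun q => by
      rw [← hl' a a.2 _ (hd b b.2 q), ← hl _ (hd a a.2 _) _ ⟨hM.conj_mem _ (hd b b.2 q).1 _,
        P.mul_mem (P.mul_mem a.2 (hd b b.2 q).2) (P.inv_mem a.2)⟩]
      congr 1
      simp only [coe_mul, hc]; group
    simp only [this, Finset.prod_mul_distrib]
    congr 1
    exact Fintype.prod_equiv (MulAction.toPerm (b : G)) _ _ fun _ => rfl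
  refine ⟨φ, fun u hu => ?_⟩
  rw [← hA V ⟨u, hu⟩, index_eq_card, Nat.card_eq_fintype_card, ← Finset.card_univ,
    ← Finset.prod_const]
  simp only [φ, V, MonoidHom.mk'_apply, ← Finset.prod_mul_distrib]
  refine Finset.prod_congr rfl fun q _ => ?_
  rw [← hl _ (hd u u.2 q) _ ⟨hu, u.2⟩, inv_mul_cancel_right]

/-- Tate's theorem (derived subgroup version). -/
theorem tate {p : ℕ} [hp : Fact p.Prime] {P : Subgroup G} (hP : SylowIn p P ⊤)
    (h : P ⊓ pResidual p G ≤ ⁅P, P⁆) : HasNormalPComplement p G := by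
  classical
  rw [hasNormalPComplement_iff_inf hP]
  haveI hMn := pResidual_normal p G
  set M := pResidual p G with hMdef
  refine eq_bot_of_le_commutator hP.isPGroup inf_le_left ?_
  set W := ⁅P ⊓ M, P⁆ with hW
  have hPU : P ≤ normalizer ((P ⊓ M : Subgroup G) : Set G) := fun x hx =>
    mem_normalizer_of_forall fun a ha =>
      ⟨P.mul_mem (P.mul_mem hx ha.1) (P.inv_mem hx), hMn.conj_mem _ ha.2 _⟩
  have hPW : P ≤ normalizer (W : Set G) := fun x hx => by
    rw [← cj_eq_iff, cj_commutator, cj_eq_of_mem_normalizer (hPU hx), cj_eq_of_mem hx]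
  haveI : (W.subgroupOf P).Normal := ⟨fun a ha x =>
    mem_subgroupOf.mpr (conj_mem_of_mem_normalizer (hPW x.2) (mem_subgroupOf.mp ha))⟩
  have hc : ∀ u : P, (u : G) ∈ M → (u : P ⧸ W.subgroupOf P) ∈ center (P ⧸ W.subgroupOf P) :=
    fun u hu => by
      rw [mem_center_iff]
      intro y
      obtain ⟨y, rfl⟩ := QuotientGroup.mk_surjective y
      rw [← QuotientGroup.mk_mul, ← QuotientGroup.mk_mul, QuotientGroup.eq, mem_subgroupOf]
      have := commutator_mem_commutator (H₁ := P ⊓ M) (H₂ := P)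
        (⟨P.inv_mem u.2, M.inv_mem hu⟩ : (u : G)⁻¹ ∈ P ⊓ M) (P.inv_mem y.2)
      simpa [commutatorElement_def, mul_assoc] using this
  let l : G → center (P ⧸ W.subgroupOf P) := fun g =>
    if hg : g ∈ M ⊓ P then ⟨_, hc ⟨g, hg.2⟩ hg.1⟩ else 1
  have hA : IsPGroup p (center (P ⧸ W.subgroupOf P)) :=
    (hP.isPGroup.to_quotient _).to_subgroup _
  obtain ⟨φ, hφ⟩ := brandis M P (pResidual_sup_sylow hP) l (fun a ha b hb => by
      simp only [l, dif_pos ha, dif_pos hb, dif_pos (mul_mem ha hb)]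
      rfl) (fun x hx a ha => by
      have : x * a * x⁻¹ ∈ M ⊓ P :=
        ⟨hMn.conj_mem _ ha.1 _, P.mul_mem (P.mul_mem hx ha.2) (P.inv_mem hx)⟩
      simp only [l, dif_pos ha, dif_pos this]
      refine Subtype.ext ?_
      have e := mem_center_iff.mp (hc ⟨a, ha.2⟩ ha.1) ((⟨x, hx⟩ : P) : P ⧸ W.subgroupOf P)
      change ((⟨x, hx⟩ * ⟨a, ha.2⟩ * ⟨x, hx⟩⁻¹ : P) : P ⧸ W.subgroupOf P) = _
      rw [QuotientGroup.mk_mul, QuotientGroup.mk_mul, e, QuotientGroup.mk_inv,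
        mul_inv_cancel_right])
    (fun f m => pResidual_le_ker hA f (pResidual_pResidual (p := p) (G := G) ▸ mem_top m))
  intro u hu
  have h1 := hφ ⟨u, hu.1⟩ hu.2
  have h2 : φ ⟨u, hu.1⟩ = 1 := by
    have h3 := h hu
    rw [← map_subtype_commutator] at h3
    obtain ⟨v, hv, rfl⟩ := h3
    exact Abelianization.commutator_subset_ker φ hv
  rw [h2, one_mul] at h1
  have h4 : l u = 1 := by
    obtain ⟨k, hk⟩ := hA (l u)
    have h5 : (p ^ k).Coprime P.index := Nat.Coprime.pow_left _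
      ((Nat.Prime.coprime_iff_not_dvd hp.out).mpr (by simpa using hP.not_dvd))
    exact (pow_eq_one_iff_of_coprime h5).mp ⟨hk, h1⟩
  have hu' : u ∈ M ⊓ P := ⟨hu.2, hu.1⟩
  simp only [l, dif_pos hu', Subtype.ext_iff, OneMemClass.coe_one, QuotientGroup.eq_one_iff,
    mem_subgroupOf] at h4
  exact h4

end Cfsg.Agent.Ind
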